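import Cfsg.Agent.H697.Alm.Defs
import Cfsg.Agent.H698.Dich

set_option autoImplicit false
open Cfsg Cfsg.Agent.H717.FieldOf Module

namespace Cfsg.Agent.H311.S4790.Isotypic

open Cfsg.Agent.H697.Alm

universe u v w

section gen
variable {R M : Type*} [Ring R] [AddCommGroup M] [Module R M] [IsSemisimpleModule R M]

theorem mem_iff_minimal {m : Submodule R M} :
    m ∈ isotypicComponents R M ↔ m.IsFullyInvariant ∧ m ≠ ⊥ ∧
      ∀ m' : Submodule R M, m' ≤ m → m'.IsFullyInvariant → m' = ⊥ ∨ m' = m := by
  constructor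
  · intro h
    have h1 := mem_isotypicComponents_iff.mp h
    refine ⟨h1.2.1, h1.2.2, fun m' hle hfi => ?_⟩
    rcases IsSemisimpleModule.eq_bot_or_exists_simple_le m' with h0 | ⟨S, hS, hs⟩
    · exact Or.inl h0
    · right
      refine le_antisymm hle ?_
      rw [eq_isotypicComponent_of_le h (hS.trans hle)]
      exact isFullyInvariant_iff_le_imp_isotypicComponent_le.mp hfi S hS
  · rintro ⟨h1, h2, h3⟩
    obtain ⟨S, hS, hs⟩ := (IsSemisimpleModule.eq_bot_or_exists_simple_le m).resolve_left h2
    have h4 := isFullyInvariant_iff_le_imp_isotypicComponent_le.mp h1 S hS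
    rcases h3 _ h4 (.isotypicComponent R M S) with h5 | h5
    · exact absurd h5 (bot_lt_isotypicComponent S).ne'
    · exact ⟨S, hs, h5.symm⟩

end gen

variable {D E : Type u} [Group D] [AddCommGroup E] [DistribMulAction D E]

/-- translate of a submodule -/
def tr (N : Subgroup D) [N.Normal] (d : D) (W : Submodule (KA E N) E) : Submodule (KA E N) E where
  carrier := {x | d⁻¹ • x ∈ W}
  add_mem' := fun {a b} ha hb => by
    change d⁻¹ • (a + b) ∈ W
    rw [smul_add]; exact W.add_mem ha hb
  zero_mem' := by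
    change d⁻¹ • (0 : E) ∈ W
    rw [smul_zero]; exact W.zero_mem
  smul_mem' := fun r x hx => by
    change d⁻¹ • ((r : AddMonoid.End E) x) ∈ W
    have h1 : d⁻¹ • ((r : AddMonoid.End E) x) = (cj E d⁻¹ (r : AddMonoid.End E)) (d⁻¹ • x) := by
      change _ = d⁻¹ • ((r : AddMonoid.End E) ((d⁻¹)⁻¹ • (d⁻¹ • x)))
      rw [smul_smul, inv_mul_cancel, one_smul]
    rw [h1]
    exact W.smul_mem (⟨cj E d⁻¹ r, cj_mem N d⁻¹ r.2⟩ : KA E N) hx

theorem mem_tr {N : Subgroup D} [N.Normal] {d : D} {W : Submodule (KA E N) E} {x : E} :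
    x ∈ tr N d W ↔ d⁻¹ • x ∈ W := Iff.rfl

theorem tr_mul (N : Subgroup D) [N.Normal] (c d : D) (W : Submodule (KA E N) E) :
    tr N (c * d) W = tr N c (tr N d W) := by
  ext x
  rw [mem_tr, mem_tr, mem_tr, mul_inv_rev, mul_smul]

theorem tr_one (N : Subgroup D) [N.Normal] (W : Submodule (KA E N) E) : tr N 1 W = W := by
  ext x
  rw [mem_tr, inv_one, one_smul]

theorem tr_mono (N : Subgroup D) [N.Normal] (d : D) {W W' : Submodule (KA E N) E} (h : W ≤ W') :
    tr N d W ≤ tr N d W' := fun _ hx => h hx

theorem tr_bot (N : Subgroup D) [N.Normal] (d : D) : tr N d (⊥ : Submodule (KA E N) E) = ⊥ := by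
  ext x
  rw [mem_tr, Submodule.mem_bot, Submodule.mem_bot]
  constructor
  · intro h
    have := congrArg (d • ·) h
    simpa using this
  · intro h
    rw [h, smul_zero]

theorem tr_fi (N : Subgroup D) [N.Normal] (d : D) {W : Submodule (KA E N) E} (h : W.IsFullyInvariant) :
    (tr N d W).IsFullyInvariant := by
  intro f x hx
  rw [Submodule.mem_comap, mem_tr]
  let f' : Module.End (KA E N) E :=
    { toFun := fun y => d⁻¹ • f (d • y)
      map_add' := fun a b => by rw [smul_add, map_add, smul_add]
      map_smul' := fun r y => by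
        have h1 : d • ((r : AddMonoid.End E) y) = (cj E d (r : AddMonoid.End E)) (d • y) := by
          change _ = d • ((r : AddMonoid.End E) ((d)⁻¹ • (d • y)))
          rw [smul_smul, inv_mul_cancel, one_smul]
        have h2 : f ((cj E d (r : AddMonoid.End E)) (d • y)) = (cj E d (r : AddMonoid.End E)) (f (d • y)) :=
          f.map_smul (⟨cj E d r, cj_mem N d r.2⟩ : KA E N) (d • y)
        change d⁻¹ • f (d • ((r : AddMonoid.End E) y)) = (r : AddMonoid.End E) (d⁻¹ • f (d • y))
        rw [h1, h2]
        change d⁻¹ • (d • ((r : AddMonoid.End E) ((d)⁻¹ • (f (d • y))))) = _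
        rw [smul_smul, inv_mul_cancel, one_smul] }
  have h3 := h f' (mem_tr.mp hx)
  rw [Submodule.mem_comap] at h3
  have h4 : f' (d⁻¹ • x) = d⁻¹ • f x := by
    change d⁻¹ • f (d • (d⁻¹ • x)) = _
    rw [smul_smul, mul_inv_cancel, one_smul]
  rwa [h4] at h3

theorem tr_mem (N : Subgroup D) [N.Normal] [IsSemisimpleModule (KA E N) E] (d : D)
    {c : Submodule (KA E N) E} (h : c ∈ isotypicComponents (KA E N) E) :
    tr N d c ∈ isotypicComponents (KA E N) E := by
  rw [mem_iff_minimal] at h ⊢
  obtain ⟨h1, h2, h3⟩ := h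
  refine ⟨tr_fi N d h1, fun h0 => h2 ?_, fun m' hle hfi => ?_⟩
  · have := congrArg (tr N d⁻¹) h0
    rwa [← tr_mul, inv_mul_cancel, tr_one, tr_bot] at this
  · have h4 : tr N d⁻¹ m' ≤ c := by
      have := tr_mono N d⁻¹ hle
      rwa [← tr_mul, inv_mul_cancel, tr_one] at this
    rcases h3 _ h4 (tr_fi N d⁻¹ hfi) with h5 | h5
    · left
      have := congrArg (tr N d) h5
      rwa [← tr_mul, mul_inv_cancel, tr_one, tr_bot] at this
    · right
      have := congrArg (tr N d) h5
      rwa [← tr_mul, mul_inv_cancel, tr_one] at this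

variable [Finite D] [Finite E] [Nontrivial E] [FaithfulSMul D E]

theorem isotypic_of_prim {p : ℕ} (hp : p.Prime) (hpE : ∀ e : E, p • e = 0) (hcop : ¬ p ∣ Nat.card D)
    (hirr : IrrAct D E) (hprim : Prim D E) (N : Subgroup D) [N.Normal] : IsIsotypic (KA E N) E := by
  classical
  have hss := H698.Dich.semisimple hp hpE hcop N
  -- transitivity
  have htrans : ∀ c ∈ isotypicComponents (KA E N) E, ∀ c' ∈ isotypicComponents (KA E N) E,
      ∃ d : D, tr N d c = c' := by
    intro c hc c' hc'
    by_contra hno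
    push Not at hno
    let W0 : Submodule (KA E N) E := sSup {W | ∃ d : D, W = tr N d c}
    have hW0 : W0 = ⊤ := by
      have h1 : W0.toAddSubgroup = ⊥ ∨ W0.toAddSubgroup = ⊤ := by
        refine hirr _ fun d x hx => ?_
        have h2 : W0 ≤ tr N d⁻¹ W0 := by
          refine sSup_le ?_
          rintro W ⟨d', rfl⟩
          have h3 : tr N (d * d') c ≤ W0 := le_sSup ⟨d * d', rfl⟩
          have h4 := tr_mono N d⁻¹ h3
          rwa [← tr_mul, ← mul_assoc, inv_mul_cancel, one_mul] at h4
        have h5 := h2 hx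
        rw [mem_tr, inv_inv] at h5
        exact h5
      rcases h1 with h1 | h1
      · exfalso
        have hcb := (bot_lt_isotypicComponents hc).ne'
        apply hcb
        rw [Submodule.eq_bot_iff]
        intro x hx
        have h2 : x ∈ W0 := (le_sSup (a := c) ⟨1, (tr_one N c).symm⟩ : c ≤ W0) hx
        have h3 : x ∈ W0.toAddSubgroup := h2
        rw [h1] at h3
        exact h3
      · rw [eq_top_iff]
        intro x _
        have : x ∈ W0.toAddSubgroup := by rw [h1]; trivial
        exact this
    have hind := sSupIndep_isotypicComponents (KA E N) E hc'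
    have h6 : W0 ≤ sSup (isotypicComponents (KA E N) E \ {c'}) := by
      refine sSup_le ?_
      rintro W ⟨d, rfl⟩
      exact le_sSup ⟨tr_mem N d hc, fun h => hno d h⟩
    rw [hW0, top_le_iff] at h6
    rw [h6, disjoint_top] at hind
    exact (bot_lt_isotypicComponents hc').ne' hind
  -- finiteness
  have : Finite (Submodule (KA E N) E) := Finite.of_injective (fun W => (W : Set E)) SetLike.coe_injective
  have : Fintype (isotypicComponents (KA E N) E) := Fintype.ofFinite _
  let t := Fintype.card (isotypicComponents (KA E N) E)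
  let eqv : Fin t ≃ isotypicComponents (KA E N) E := (Fintype.equivFin _).symm
  let W : Fin t → AddSubgroup E := fun i => (eqv i).1.toAddSubgroup
  have hindep : iSupIndep (fun i : Fin t => (eqv i).1) :=
    ((sSupIndep_iff _).mp (sSupIndep_isotypicComponents (KA E N) E)).comp eqv.injective
  have htop : ⨆ i : Fin t, (eqv i).1 = ⊤ := by
    rw [← sSup_isotypicComponents (KA E N) E, sSup_eq_iSup']
    exact eqv.iSup_comp (g := fun c : isotypicComponents (KA E N) E => c.1)
  have hint : DirectSum.IsInternal (fun i : Fin t => (eqv i).1) :=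
    DirectSum.isInternal_submodule_of_iSupIndep_of_iSup_eq_top hindep htop
  have hBlk : Blk D E t W := by
    refine ⟨fun d i => ?_, fun i j => ?_, fun i h0 => ?_, fun e => ?_⟩
    · refine ⟨eqv.symm ⟨tr N d (eqv i).1, tr_mem N d (eqv i).2⟩, fun e => ?_⟩
      change e ∈ (eqv i).1 ↔ d • e ∈ (eqv (eqv.symm ⟨tr N d (eqv i).1, tr_mem N d (eqv i).2⟩)).1
      rw [Equiv.apply_symm_apply, mem_tr, smul_smul, inv_mul_cancel, one_smul]
    · obtain ⟨d, hd⟩ := htrans _ (eqv i).2 _ (eqv j).2
      refine ⟨d, fun e => ?_⟩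
      change e ∈ (eqv i).1 ↔ d • e ∈ (eqv j).1
      rw [← hd, mem_tr, smul_smul, inv_mul_cancel, one_smul]
    · apply (bot_lt_isotypicComponents (eqv i).2).ne'
      rw [Submodule.eq_bot_iff]
      intro x hx
      have h3 : x ∈ W i := hx
      rw [h0] at h3
      exact h3
    · have hsum : ∀ x : (DirectSum (Fin t) fun i => (eqv i).1),
          DirectSum.coeAddMonoidHom (fun i : Fin t => (eqv i).1) x = ∑ i, ((x i : (eqv i).1) : E) := by
        intro x
        rw [DirectSum.coeAddMonoidHom_eq_dfinsuppSum, DFinsupp.sum_eq_sum_fintype]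
        · rfl
        · exact fun i => rfl
      obtain ⟨x, hx⟩ := hint.surjective e
      refine ⟨fun i => (x i : E), ⟨fun i => (x i).2, ?_⟩, ?_⟩
      · rw [← hx, hsum]
      · rintro c' ⟨hc1, hc2⟩
        let y : DirectSum (Fin t) fun i => (eqv i).1 := DFinsupp.equivFunOnFintype.symm fun i => ⟨c' i, hc1 i⟩
        have hy : ∀ i, ((y i : (eqv i).1) : E) = c' i := fun i => rfl
        have h1 : DirectSum.coeAddMonoidHom (fun i : Fin t => (eqv i).1) y = e := by
          rw [hsum, ← hc2]
          exact Finset.sum_congr rfl fun i _ => hy i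
        have h2 : y = x := hint.injective (h1.trans hx.symm)
        funext i
        rw [← hy i, h2]
  have ht := hprim t W hBlk
  have hsub : Subsingleton (isotypicComponents (KA E N) E) := by
    rw [← Fintype.card_le_one_iff_subsingleton]
    exact ht
  intro S hS
  have hc : isotypicComponent (KA E N) E S ∈ isotypicComponents (KA E N) E := ⟨S, hS, rfl⟩
  apply IsIsotypicOfType.of_isotypicComponent_eq_top
  have h1 := sSup_isotypicComponents (KA E N) E
  have h2 : isotypicComponents (KA E N) E = {isotypicComponent (KA E N) E S} := by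
    ext c
    constructor
    · intro hc'
      exact congrArg Subtype.val (hsub.elim ⟨c, hc'⟩ ⟨_, hc⟩)
    · rintro rfl
      exact hc
  rw [h2, sSup_singleton] at h1
  exact h1

end Cfsg.Agent.H311.S4790.Isotypic
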